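import Cfsg.Agent.QT0.WrD

/-! No maximal 2-local `S₄ ≀ 2` over a Sylow 2-subgroup, elementwise form. -/

set_option autoImplicit false
open Cfsg

namespace Cfsg.Agent.QT0.Lf

open Subgroup Cfsg.Agent.H92 Cfsg.Agent.H70 Cfsg.Agent.QT0.Wr

theorem wr_false {G : Type*} [Group G] [Finite G] (hO : pResidual 2 G = ⊤) (hQ : IsQTKE G)
    (T : Sylow 2 G) (M : Subgroup G) (hM : M ∈ maxTwoLocalsContaining (T : Subgroup G))
    (e : P4 × P4 →* G) (t : G) (he : Function.Injective e) (tt : t * t = 1)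
    (sw : ∀ p q, t * e (p, q) = e (q, p) * t) (eM : ∀ x, e x ∈ M) (tM : t ∈ M)
    (hMc : ∀ g ∈ M, ∃ p q, g = e (p, q) ∨ g = e (p, q) * t) : False := by
  classical
  have eq : ∀ {a b c d : P4}, e (a, b) = e (c, d) ↔ a = c ∧ b = d := by
    intro a b c d
    rw [he.eq_iff, Prod.mk.injEq]
  have etc : ∀ p q a b : P4, e (p, q) * t * e (a, b) * (e (p, q) * t)⁻¹ = e (p * b * p⁻¹, q * a * q⁻¹) := by
    intro p q a b
    rw [← e_cj, mul_assoc _ t, sw]; group
  have pg : ∀ X Y : Subgroup P4, X ≤ D0 → Y ≤ D0 → IsPGroup 2 (pr e X Y) := by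
    intro X Y hX hY
    rw [isPGroup_iff_mem]
    intro g hg
    obtain ⟨p, hp, q, hq, rfl⟩ := mem_pr.1 hg
    exact ⟨2, by rw [← map_pow, Prod.pow_mk, show 2 ^ 2 = 4 from rfl, pow4_D p (hX hp), pow4_D q (hY hq), e_one]⟩
  have ne : ∀ X Y : Subgroup P4, z0 ∈ X → pr e X Y ≠ ⊥ := by
    intro X Y hX h1
    have := e_mem (e := e) hX (one_mem Y)
    rw [h1, mem_bot, ← e_one (e := e), eq] at this
    exact z_ne this.1
  have hA : normalizer (pr e V0 V0 : Set G) = M := by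
    refine hM.1.2 _ ⟨_, pg _ _ V_le_D V_le_D, ne _ _ z_mem_V, rfl⟩ ?_
    rw [le_norm_iff_cj]
    intro g hg
    rw [cj_le_iff]
    intro x hx
    obtain ⟨a, ha, b, hb, rfl⟩ := mem_pr.1 hx
    obtain ⟨p, q, rfl | rfl⟩ := hMc g hg
    · rw [e_cj]; exact e_mem (norm_V _ _ ha) (norm_V _ _ hb)
    · rw [etc]; exact e_mem (norm_V _ _ hb) (norm_V _ _ ha)
  set S := M ⊓ centralizer {e (z0, z0)} with hS
  have tz : t ∈ centralizer {e (z0, z0)} := mem_centralizer_singleton_iff.2 (sw _ _)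
  have eS : ∀ p q, e (p, q) ∈ centralizer {e (z0, z0)} ↔ p ∈ D0 ∧ q ∈ D0 := by
    intro p q
    rw [mem_centralizer_singleton_iff, e_mul, e_mul, eq]; rfl
  have memS : ∀ g, g ∈ S ↔ ∃ p ∈ D0, ∃ q ∈ D0, g = e (p, q) ∨ g = e (p, q) * t := by
    intro g
    constructor
    · rintro ⟨h1, h2⟩
      obtain ⟨p, q, rfl | rfl⟩ := hMc g h1
      · exact ⟨p, ((eS p q).1 h2).1, q, ((eS p q).1 h2).2, Or.inl rfl⟩
      · have := (eS p q).1 ((mul_mem_cancel_right tz).1 h2)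
        exact ⟨p, this.1, q, this.2, Or.inr rfl⟩
    · rintro ⟨p, hp, q, hq, rfl | rfl⟩
      · exact ⟨eM _, (eS p q).2 ⟨hp, hq⟩⟩
      · exact ⟨mul_mem (eM _) tM, mul_mem ((eS p q).2 ⟨hp, hq⟩) tz⟩
  have pS : IsPGroup 2 S := by
    rw [isPGroup_iff_mem]
    intro g hg
    have h1 : g * g ∈ pr e D0 D0 := by
      obtain ⟨p, hp, q, hq, rfl | rfl⟩ := (memS g).1 hg
      · exact mul_mem (e_mem hp hq) (e_mem hp hq)
      · have : e (p, q) * t * (e (p, q) * t) = e (p, q) * e (q, p) := by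
          rw [mul_assoc, ← mul_assoc t, sw, mul_assoc, tt, mul_one]
        rw [this]
        exact mul_mem (e_mem hp hq) (e_mem hq hp)
    obtain ⟨k, hk⟩ := isPGroup_iff_mem.1 (pg _ _ le_rfl le_rfl) _ h1
    exact ⟨k + 1, by rw [pow_succ, mul_comm, pow_mul, pow_two, hk]⟩
  have sM : SylIn 2 S M := by
    refine sylIn_of_norm inf_le_left pS fun g hg hn => ⟨hg, mem_centralizer_singleton_iff.2 (comm_of_cj ?_)⟩
    have key : ∀ a b, g * e (z0, z0) * g⁻¹ = e (a, b) → a ≠ 1 → b ≠ 1 → a = z0 ∧ b = z0 := by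
      intro a b h1 a1 b1
      have h2 : ∀ s ∈ S, s * e (a, b) = e (a, b) * s := by
        intro s hs
        have h3 := mem_centralizer_singleton_iff.1 (conj_mem_of_mem_norm' hn hs).2
        rw [← h1]
        calc s * (g * e (z0, z0) * g⁻¹) = g * (g⁻¹ * s * g * e (z0, z0)) * g⁻¹ := by group
          _ = _ := by rw [h3]; group
      have h3 := fun p hp => h2 _ ((memS _).2 ⟨p, hp, p, hp, Or.inl rfl⟩)
      simp only [e_mul, eq] at h3
      exact ⟨(cenZ_D a (h3 _ z_mem_D).1.symm (h3 _ v_mem_D).1.symm (h3 _ w_mem_D).1.symm).resolve_left a1,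
        (cenZ_D b (h3 _ z_mem_D).2.symm (h3 _ v_mem_D).2.symm (h3 _ w_mem_D).2.symm).resolve_left b1⟩
    obtain ⟨p, q, rfl | rfl⟩ := hMc g hg
    · have := key _ _ (e_cj _ _ _ _) (cj_ne_one z_ne) (cj_ne_one z_ne)
      rw [e_cj, this.1, this.2]
    · have := key _ _ (etc _ _ _ _) (cj_ne_one z_ne) (cj_ne_one z_ne)
      rw [etc, this.1, this.2]
  have sG : SylIn 2 S ⊤ :=
    (sylIn_top T).of_card_le le_top pS (sM.card_le hM.2 T.isPGroup')
  have h : Hyp e t S := ⟨he, tt, sw, memS, sG, fun g hg => hMc g (hA ▸ hg)⟩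
  refine h.false ?_ hO (hQ.1 3 Nat.prime_three (by norm_num) _ ⟨_, pg _ _ V_le_D bot_le, ne _ _ z_mem_V, rfl⟩)
  · have hz : e (z0, z0) * e (z0, z0) = 1 := by rw [e_mul, zz, e_one]
    have hz1 : e (z0, z0) ≠ 1 := fun h1 => z_ne (h.eq_one.1 h1).1
    have hZ : ∀ x ∈ zpowers (e (z0, z0)), x = 1 ∨ x = e (z0, z0) := by
      intro x hx
      obtain ⟨k, hk, rfl⟩ := (mem_zpowers_iff_mem_range_orderOf.1 hx |> Finset.mem_image.1)
      rw [orderOf_eq_prime (p := 2) (by rw [pow_two, hz]) hz1, Finset.mem_range] at hk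
      interval_cases k <;> simp
    have hN : normalizer (zpowers (e (z0, z0)) : Set G) = centralizer {e (z0, z0)} := by
      refine le_antisymm (fun g hg => mem_centralizer_singleton_iff.2 (comm_of_cj ?_)) ?_
      · exact (hZ _ (conj_mem_of_mem_norm hg (mem_zpowers _))).resolve_left (cj_ne_one hz1)
      · rw [← centralizer_closure, ← zpowers_eq_closure]
        exact centralizer_le_normalizer _
    obtain ⟨T', hT'⟩ := sylIn_top_iff.1 sG
    rw [← hN]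
    refine isChar_iff.2 (hQ.2.2 _ ⟨_, h.pg (zpowers_le.2 (h.J_le (e_mem z_mem_D z_mem_D))),
      fun h1 => hz1 (zpowers_eq_bot.1 h1), rfl⟩ ⟨T', ?_⟩)
    rw [hT', hN]
    exact h.T_centz

end Cfsg.Agent.QT0.Lf
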