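import Cfsg.Agent.QT0.WrC
import Cfsg.Agent.QT0.Defs
import Cfsg.Agent.S3035
import Cfsg.Agent.H3.Transfer2
import Cfsg.Agent.H22.Core
import Cfsg.Agent.H9.SLBasic

/-! S1829, part D: the nonsplit case and the final contradiction. -/

set_option autoImplicit false
set_option synthInstance.maxSize 2048

namespace Cfsg.Agent.QT0.Wr

open Subgroup Cfsg Cfsg.Agent.H92 Cfsg.Agent.H70

variable {G : Type*} [Group G] {e : P4 × P4 →* G} {t : G} {T : Subgroup G}

theorem card_sl32 : Nat.card (Matrix.SpecialLinearGroup (Fin 3) (ZMod 2)) = 168 := by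
  have h2 := H9.card_sl_fin (F := ZMod 2) 3 (by norm_num)
  rw [ZMod.card] at h2
  generalize Nat.card (Matrix.SpecialLinearGroup (Fin 3) (ZMod 2)) = A at *
  norm_num [Fin.prod_univ_succ] at h2
  omega

theorem nc_A6 : NC 3 (alternatingGroup (Fin 6)) := by
  let u : alternatingGroup (Fin 6) :=
    ⟨Equiv.swap 0 1 * Equiv.swap 1 2, Equiv.Perm.mem_alternatingGroup.2 (by decide)⟩
  let v : alternatingGroup (Fin 6) :=
    ⟨Equiv.swap 3 4 * Equiv.swap 4 5, Equiv.Perm.mem_alternatingGroup.2 (by decide)⟩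
  refine nc_of_pair Nat.prime_three (u := u) (v := v) (Subtype.ext (by decide)) (Subtype.ext (by decide))
    (fun h => absurd (congrArg Subtype.val h) (by decide)) (Subtype.ext (by decide)) ?_
  rintro ⟨n, hn⟩
  have h1 : ((u : Equiv.Perm (Fin 6)) ^ n) 3 = 3 :=
    Equiv.Perm.zpow_apply_eq_self_of_apply_eq_self (by decide) n
  have h2 : (u : Equiv.Perm (Fin 6)) ^ n = v := by rw [← hn]; rfl
  rw [h2] at h1
  exact absurd h1 (by decide)

/-- `D₈` inside `S₄` -/
def dih : DihedralGroup 4 →* P4 where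
  toFun
    | .r i => (v0 * w0) ^ i.val
    | .sr i => w0 * (v0 * w0) ^ i.val
  map_one' := by decide
  map_mul' := by decide +kernel

theorem dih_inj : Function.Injective dih := by
  have : ∀ a b, dih a = dih b → a = b := by decide +kernel
  exact this

theorem dih_mem : ∀ a, dih a ∈ D0 := by decide +kernel

theorem dih_surj : ∀ p ∈ D0, ∃ a, dih a = p := by decide +kernel

theorem cent_inf_comm [Finite G] {R H : Subgroup G} (h : SylIn 2 R H) {x : G} (hx : x ∈ R)
    (hc : H ≤ centralizer {x}) (hx' : x ∈ ⁅H, H⁆) : x ∈ ⁅R, R⁆ := by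
  have h1 := H3.center_inf_commutator_inf_sylow_le h.toSylow (x := ⟨x, h.le hx⟩) ⟨⟨?_, ?_⟩, hx⟩
  · have h2 := mem_map_of_mem H.subtype h1
    rwa [map_commutator, show (h.toSylow : Subgroup H) = R.subgroupOf H from rfl,
      map_subtype_subgroupOf h.le] at h2
  · exact mem_center_iff.2 fun g => Subtype.ext (mem_centralizer_singleton_iff.1 (hc g.2))
  · rw [← map_subtype_top H, ← map_commutator] at hx'
    obtain ⟨y, hy, rfl⟩ := hx'
    exact hy

namespace Hyp

variable (h : Hyp e t T) [Finite G]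
include h

theorem minus (hz : IsChar 2 (centralizer {e (z0, z0)}))
    (hQ : PRankLE 3 2 (normalizer (pr e V0 ⊥ : Set G))) {y : G} (y3 : y ^ 3 = 1)
    (vy : e (1, v0) * y * (e (1, v0))⁻¹ = y⁻¹) (y1 : y * e (z0, 1) * y⁻¹ = e (z0, 1))
    (y4 : y * e (w0, z0) * y⁻¹ = e (w0, z0)) (y5 : y * e (v0, 1) * y⁻¹ = e (v0, 1))
    (y2 : y * e (1, z0) * y⁻¹ = e (1, w0)) (y6 : y * e (1, w0) * y⁻¹ = e (1, w0 * z0)) : False := by
  set K := pr e ⊥ ⊤ ⊔ zpowers y with hK
  set C := centralizer (pr e V0 ⊥ : Set G) with hC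
  have eK : ∀ q, e (1, q) ∈ K := fun q => mem_sup_left (e_mem (one_mem _) (mem_top _))
  have yK : y ∈ K := mem_sup_right (mem_zpowers y)
  have yC : y ∈ C := by
    have : pr e V0 ⊥ ≤ centralizer {y} := by
      refine pr_le (four_l (mem_centralizer_singleton_iff.2 (comm_of_cj y1).symm)
        (mem_centralizer_singleton_iff.2 (comm_of_cj y5).symm)) fun q hq => ?_
      rw [mem_bot.1 hq, e_one]; exact one_mem _
    exact mem_centralizer_iff.2 fun x hx => mem_centralizer_singleton_iff.1 (this hx)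
  have hKC : K ≤ C := by
    refine sup_le (cent_pr (fun p hp a _ => ?_) fun p _ a ha => ?_) (zpowers_le.2 yC)
    · rw [mem_bot.1 hp, one_mul, mul_one]
    · rw [mem_bot.1 ha, one_mul, mul_one]
  have hperf : K ≤ ⁅K, K⁆ := by
    have hn : ∀ k ∈ K, ∀ x ∈ ⁅K, K⁆, k * x * k⁻¹ ∈ ⁅K, K⁆ := fun k hk x hx =>
      conj_mem_of_le_norm (norm_commutator (norm_of_le le_rfl) (norm_of_le le_rfl)) hk hx
    have a1 : e (1, w0 * z0) ∈ ⁅K, K⁆ := by
      have := commutator_mem_commutator yK (eK z0)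
      rwa [commutatorElement_def, y2, e_inv, e_mul, inv_one, mul_one, inv_eq_of_mul_eq_one_right zz] at this
    refine sup_le (pr_le (fun p hp => by rw [mem_bot.1 hp, e_one]; exact one_mem _) fun q _ => ?_)
      (zpowers_le.2 ?_)
    · induction q using Equiv.Perm.swap_induction_on with
      | one => rw [e_one]; exact one_mem _
      | swap_mul f a b hab ih =>
        have k : ∀ a b : Fin 4, a ≠ b → ∃ x : P4, x * (w0 * z0) * x⁻¹ = Equiv.swap a b := by decide +kernel
        obtain ⟨x, hx⟩ := k a b hab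
        have a2 := mul_mem (hn _ (eK x) _ a1) (ih (mem_top _))
        rwa [e_cj, hx, e_mul, one_mul, inv_one, mul_one, one_mul] at a2
    · have := commutator_mem_commutator (eK v0) yK
      rw [commutatorElement_def, vy] at this
      have h1 : y = y⁻¹ * y⁻¹ := by
        rw [eq_mul_inv_iff_mul_eq, eq_inv_iff_mul_eq_one, ← y3, pow_succ, pow_two]
      rwa [h1]
  have hU : ∀ g ∈ C, g * e (1, z0) = e (1, z0) * g → g ∈ pr e V0 D0 := by
    intro g hg h1
    have : pr e V0 Z0 ≤ centralizer {g} := by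
      refine pr_le (fun p hp => mem_centralizer_singleton_iff.2
        (mem_centralizer_iff.1 hg _ (e_mem hp (one_mem _)))) ?_
      rintro _ (rfl | rfl)
      · rw [e_one]; exact one_mem _
      · exact mem_centralizer_singleton_iff.2 h1.symm
    exact h.centU hz (mem_centralizer_iff.2 fun x hx => mem_centralizer_singleton_iff.1 (this hx))
  have hKV : ∀ p ∈ V0, e (p, 1) ∈ K → p = 1 := by
    intro p hp h1
    have h2 := cent_inf_comm h.sylR (e_mem hp (one_mem D0)) (fun g hg => mem_centralizer_singleton_iff.2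
      (mem_centralizer_iff.1 hg _ (e_mem hp (one_mem _))).symm) (commutator_mono hKC hKC (hperf h1))
    have h3 : ⁅pr e V0 D0, pr e V0 D0⁆ ≤ pr e ⊥ ⊤ := by
      rw [commutator_le]
      intro a ha b hb
      obtain ⟨p, hp, q, -, rfl⟩ := mem_pr.1 ha
      obtain ⟨p', hp', q', -, rfl⟩ := mem_pr.1 hb
      rw [commutatorElement_def, e_cj, e_inv, e_mul]
      refine e_mem ?_ (mem_top _)
      rw [comm_V p hp p' hp', mem_bot]; group
    exact mem_bot.1 (h.mem_pr_iff.1 (h3 h2)).1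
  let z : K := ⟨e (1, z0), eK z0⟩
  have hz2 : orderOf z = 2 := by
    refine orderOf_eq_prime (Subtype.ext ?_) fun h1 => z_ne (h.eq_one.1 (congrArg Subtype.val h1)).2
    change e (1, z0) ^ 2 = 1
    rw [pow_two, e_mul, zz, one_mul, e_one]
  have hcz : ∀ g : K, g ∈ centralizer {z} → ∃ q ∈ D0, (g : G) = e (1, q) := by
    intro g hg
    obtain ⟨p, hp, q, hq, h1⟩ := mem_pr.1 (hU g (hKC g.2)
      (congrArg Subtype.val (mem_centralizer_singleton_iff.1 hg)))
    have h2 : e (p, 1) ∈ K := by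
      have := mul_mem g.2 (inv_mem (eK q))
      rwa [h1, e_inv, e_mul, inv_one, mul_one, mul_inv_cancel] at this
    exact ⟨q, hq, by rw [h1, hKV p hp h2]⟩
  let f0 : DihedralGroup 4 →* K := ((e.comp (MonoidHom.inr P4 P4)).comp dih).codRestrict K fun a => eK _
  let f : DihedralGroup 4 →* centralizer {z} := f0.codRestrict _ fun a =>
    mem_centralizer_singleton_iff.2 (Subtype.ext (e_comm (by simp) (dih_mem a)))
  have hf : Function.Bijective f := by
    refine ⟨fun a b hab => dih_inj (h.eq_iff.1 (congrArg (fun x : centralizer {z} => ((x : K) : G)) hab)).2,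
      fun g => ?_⟩
    obtain ⟨q, hq, h1⟩ := hcz g g.2
    obtain ⟨a, rfl⟩ := dih_surj q hq
    exact ⟨a, Subtype.ext (Subtype.ext h1.symm)⟩
  have hcard : 192 ≤ Nat.card K := by
    have yw : y * e (w0, 1) * y⁻¹ = e (w0, w0 * z0) := by
      rw [← zz, ← mul_one w0, ← e_mul, cj_mul', y4, y2, e_mul, show z0 * w0 = w0 * z0 by decide, mul_one]
    let I := {τ : P4 // τ * τ = 1 ∧ (τ = 1 ∨ Equiv.Perm.sign τ = -1)}
    have hI : Nat.card I = 7 := by rw [Nat.card_eq_fintype_card]; decide +kernel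
    have ex : ∀ τ : I, ∃ k ∈ K, k * e (w0, 1) * k⁻¹ = e (w0, τ.1) := by
      rintro ⟨τ, h1, rfl | h2⟩
      · exact ⟨1, one_mem _, by simp⟩
      · have k : ∀ τ : P4, τ * τ = 1 → Equiv.Perm.sign τ = -1 → ∃ x : P4, x * (w0 * z0) * x⁻¹ = τ := by
          decide +kernel
        obtain ⟨x, hx⟩ := k τ h1 h2
        exact ⟨_, mul_mem (eK x) yK, by rw [cj_cj, yw, e_cj, hx]; simp⟩
    choose k hk hk' using ex
    let τ0 : I := ⟨Equiv.swap 1 2, by decide⟩
    let F : Option I → G := fun i => i.elim (y⁻¹ * k τ0) k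
    have hF : ∀ i, F i ∈ K := by
      rintro (_ | i)
      exacts [mul_mem (inv_mem yK) (hk _), hk _]
    have n1 : ∀ i : I, y⁻¹ * k τ0 * e (w0, 1) * (y⁻¹ * k τ0)⁻¹ ≠ k i * e (w0, 1) * (k i)⁻¹ := by
      intro i h1
      rw [cj_cj, hk', hk'] at h1
      have h2 := cj_inv_of h1
      rw [inv_inv] at h2
      have h3 : e (w0, τ0.1) * e (w0, w0 * z0) = e (w0, w0 * z0) * e (w0, τ0.1) := by
        rw [← yw, ← h2, ← cj_mul', ← cj_mul', e_comm rfl (by simp)]
      rw [e_mul, e_mul, h.eq_iff] at h3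
      exact absurd h3.2 (by decide)
    have Finj : ∀ i j, F i * e (w0, 1) * (F i)⁻¹ = F j * e (w0, 1) * (F j)⁻¹ → i = j := by
      rintro (_ | i) (_ | j) h1
      · rfl
      · exact (n1 j h1).elim
      · exact (n1 i h1.symm).elim
      · change k i * _ * (k i)⁻¹ = k j * _ * (k j)⁻¹ at h1
        rw [hk', hk', h.eq_iff] at h1
        rw [Subtype.ext h1.2]
    let Φ : Option I × P4 → K := fun x => ⟨F x.1 * e (1, x.2), mul_mem (hF _) (eK _)⟩
    have hΦ : Function.Injective Φ := by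
      rintro ⟨i, q⟩ ⟨j, q'⟩ h1
      have h2 : F i * e (1, q) = F j * e (1, q') := congrArg Subtype.val h1
      have h3 : ∀ i q, F i * e (1, q) * e (w0, 1) * (F i * e (1, q))⁻¹ = F i * e (w0, 1) * (F i)⁻¹ := by
        intro i q
        rw [cj_cj, e_cj]; simp
      obtain rfl := Finj i j (by rw [← h3 i q, h2, h3])
      rw [mul_right_inj, h.eq_iff] at h2
      rw [h2.2]
    have := Nat.card_le_card_of_injective Φ hΦ
    rwa [Nat.card_prod, Finite.card_option, hI, Nat.card_perm, Nat.card_fin] at this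
  rcases S3035.result z hz2 ⟨(MulEquiv.ofBijective f hf).symm⟩ with h1 | ⟨⟨φ⟩⟩ | ⟨⟨φ⟩⟩ | ⟨⟨φ⟩⟩ | ⟨⟨φ⟩⟩
  · have hP : IsPGroup 2 (centralizer {z}) := by
      rw [isPGroup_iff_mem]
      intro g hg
      obtain ⟨q, hq, h2⟩ := hcz g hg
      refine ⟨2, Subtype.ext ?_⟩
      rw [coe_pow, h2, ← map_pow, Prod.pow_mk, one_pow, show 2 ^ 2 = 4 from rfl, pow4_D q hq]
      exact e_one
    have h2 := pRes_sup_le_of_isPGroup (N := oddCore K) hP norm_of_normal
    rw [sup_comm, h1] at h2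
    have h3 : (⟨y, yK⟩ : K) ∈ oddCore K := by
      refine h2 (mem_pRes (mem_top _) ?_)
      exact Nat.Coprime.coprime_dvd_left (orderOf_dvd_of_pow_eq_one (n := 3) (Subtype.ext y3)) (by norm_num)
    have h4 := mul_mem (Normal.conj_mem inferInstance _ h3 z) (inv_mem h3)
    have h5 : orderOf (z * ⟨y, yK⟩ * z⁻¹ * ⟨y, yK⟩⁻¹) = 2 := by
      have a : ((z * ⟨y, yK⟩ * z⁻¹ * ⟨y, yK⟩⁻¹ : K) : G) = e (1, z0 * w0) := by
        change e (1, z0) * y * (e (1, z0))⁻¹ * y⁻¹ = _
        rw [e_inv, inv_one, inv_eq_of_mul_eq_one_right zz, mul_assoc, mul_assoc, ← mul_assoc y, y2, e_mul,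
          one_mul]
      refine orderOf_eq_prime (Subtype.ext ?_) fun h1 => ?_
      · rw [coe_pow, a, pow_two, e_mul, one_mul, show z0 * w0 * (z0 * w0) = 1 by decide]
        exact e_one
      · rw [h1] at a
        exact absurd (h.eq_one.1 a.symm).2 (by decide)
    have h6 := (H22.coprime_card_pPrimeCore (p := 2) (G := K)).coprime_dvd_left (orderOf_dvd_natCard _ h4)
    rw [h5] at h6
    exact absurd h6 (by norm_num)
  · rw [Nat.card_congr φ.toEquiv, Nat.card_perm, Nat.card_fin] at hcard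
    exact absurd hcard (by decide)
  · rw [Nat.card_congr φ.toEquiv, Nat.card_perm, Nat.card_fin] at hcard
    exact absurd hcard (by decide)
  · rw [Nat.card_congr φ.toEquiv, card_sl32] at hcard
    exact absurd hcard (by decide)
  obtain ⟨x, x3, hxz⟩ : ∃ x : P4, x ^ 3 = 1 ∧ x * z0 * x⁻¹ = v0 := by decide +kernel
  have xN : e (x, 1) ∈ normalizer (pr e V0 ⊥ : Set G) :=
    norm_pr (X' := ⊤) (Y' := ⊥) (fun p _ => norm_V p) (fun p hp a ha => by simp [mem_bot.1 ha])
      (e_mem (mem_top _) (one_mem _))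
  have xe : ∀ q, e (x, 1) * e (1, q) = e (1, q) * e (x, 1) := fun q => e_comm (by simp) (by simp)
  have xy : e (x, 1) * y * (e (x, 1))⁻¹ = y := by
    have a0 : ∀ q q', y * e (1, q) * y⁻¹ = e (1, q') →
        y⁻¹ * (e (x, 1) * y * (e (x, 1))⁻¹) * e (1, q) = e (1, q) * (y⁻¹ * (e (x, 1) * y * (e (x, 1))⁻¹)) := by
      intro q q' h1
      refine comm_of_cj ?_
      rw [cj_cj, cj_cj (e (x, 1) * y), cj_cj, cj_inv_of (cj_of_comm (xe q)), h1, cj_of_comm (xe q'),
        cj_inv_of h1]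
    have a1 : y⁻¹ * (e (x, 1) * y * (e (x, 1))⁻¹) ∈ C :=
      mul_mem (inv_mem yC) (conj_mem_of_mem_norm (norm_centralizer le_rfl xN) yC)
    obtain ⟨p, hp, q, hq, a2⟩ := mem_pr.1 (hU _ a1 (a0 _ _ y2))
    have a3 := a0 _ _ y6
    rw [a2, e_mul, e_mul, h.eq_iff] at a3
    have hqW := cent_W q hq a3.2
    have a4 : e (x, 1) * y * (e (x, 1))⁻¹ = y * e (p, q) := by rw [← a2, mul_inv_cancel_left]
    have y7 : y * e (1, w0 * z0) * y⁻¹ = e (1, z0) := by
      rw [← mul_one (1 : P4), ← e_mul, cj_mul', y6, y2, e_mul, show w0 * z0 * w0 = z0 by decide]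
    have yp : y * e (p, 1) * y⁻¹ = e (p, 1) :=
      cj_of_comm (mem_centralizer_iff.1 yC _ (e_mem hp (one_mem _))).symm
    have a5 : ∀ a ∈ W0, ∃ b ∈ W0, y * e (p, a) * y⁻¹ = e (p, b) := by
      have b : ∀ a b, y * e (1, a) * y⁻¹ = e (1, b) → y * e (p, a) * y⁻¹ = e (p, b) := by
        intro a b h1
        rw [e_split, cj_mul', yp, h1, ← e_split]
      rintro _ (rfl | rfl | rfl | rfl)
      · exact ⟨1, one_mem _, yp⟩
      · exact ⟨_, w_mem_W, b _ _ y2⟩
      · exact ⟨_, mul_mem w_mem_W z_mem_W, b _ _ y6⟩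
      · exact ⟨_, z_mem_W, b _ _ y7⟩
    obtain ⟨q1, hq1, b1⟩ := a5 q hqW
    obtain ⟨q2, -, b2⟩ := a5 q1 hq1
    have a6 : e (p, q) * e (p, q1) * e (p, q2) = 1 := by
      calc e (p, q) * e (p, q1) * e (p, q2) = y⁻¹ * (y * e (p, q)) ^ 3 * (y ^ 3)⁻¹ * y := by
            rw [← b2, ← b1]; simp only [pow_succ, pow_zero, one_mul]; group
        _ = 1 := by rw [← a4, conj_pow, y3]; simp
    rw [e_mul, e_mul, h.eq_one, sq_V p hp, one_mul] at a6
    rw [a6.1] at a4
    have a7 : e (x, 1) * (e (x, 1) * y * (e (x, 1))⁻¹) * (e (x, 1))⁻¹ = y := by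
      rw [a4, cj_mul', a4, cj_of_comm (xe q), mul_assoc, e_mul, sq_W q hqW, one_mul, e_one, mul_one]
    have a8 : e (x, 1) * (e (x, 1) * e (x, 1)) = 1 := by
      rw [e_mul, e_mul, ← pow_three, x3, one_mul, one_mul, e_one]
    conv_lhs => rw [← a7]
    rw [← cj_cj, ← cj_cj, mul_assoc (e (x, 1)), a8]; simp
  have xK : K ≤ centralizer {e (x, 1)} := by
    refine sup_le (pr_le (fun p hp => ?_) fun q _ => mem_centralizer_singleton_iff.2 (xe q).symm)
      (zpowers_le.2 (mem_centralizer_singleton_iff.2 (comm_of_cj xy).symm))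
    rw [mem_bot.1 hp, e_one]; exact one_mem _
  obtain ⟨A, hA⟩ := (nc_iff Nat.prime_three).1 (NC.of_equiv Nat.prime_three φ nc_A6)
  have hA' := hA.map_of_injective K.subtype_injective
  rw [map_subtype_top] at hA'
  have x1 : e (x, 1) ≠ 1 := fun h1 => by
    rw [(h.eq_one.1 h1).1] at hxz
    exact absurd hxz (by decide)
  have hX := H49.isElem_zpowers' Nat.prime_three xN (by rw [← map_pow, Prod.pow_mk, x3, one_pow, e_one]) x1
  have hE := hX.sup_of_cent (hA'.mono (hKC.trans (centralizer_le_normalizer _))) (by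
    rw [zpowers_le, mem_centralizer_iff]
    exact fun g hg => mem_centralizer_singleton_iff.1 (xK (hA'.le hg))) (by
    by_contra hne
    obtain ⟨⟨g, hg⟩, hg1⟩ := ne_bot_iff_exists_ne_one.1 hne
    have h1 := hX.eq_zpowers Nat.prime_three hg.1 (fun h2 => hg1 (Subtype.ext h2))
    have h2 : e (x, 1) ∈ C := zpowers_le.1 (h1.le.trans (zpowers_le.2 (hKC (hA'.le hg.2))))
    have h3 := mem_centralizer_iff.1 h2 _ (e_mem z_mem_V (one_mem ⊥))
    rw [e_mul, e_mul, h.eq_iff] at h3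
    rw [← h3.1, mul_inv_cancel_right] at hxz
    exact absurd hxz (by decide))
  have := (hE.le_pRank Nat.prime_three).trans ((H49.pRank_le_iff Nat.prime_three).2 hQ)
  omega

theorem false (hz : IsChar 2 (centralizer {e (z0, z0)})) (hO : pResidual 2 G = ⊤)
    (hQ : PRankLE 3 2 (normalizer (pr e V0 ⊥ : Set G))) : False := by
  obtain ⟨u, hu, y, y3, vy, y1, y4, y5, y2, y6⟩ := h.exists_y' hz hO
  rcases hu with rfl | rfl
  · exact h.plus hO y1 y4 y5 y2
  · exact h.minus hz hQ y3 vy y1 y4 y5 y2 y6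

end Hyp

end Cfsg.Agent.QT0.Wr
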